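import Mathlib

/-!
Scott's inequality for permutation modules over `ℚ` (which contains Ree's theorem) and the rank bound for
elements of prime order.
-/

set_option autoImplicit false

namespace H93.Ree

variable {Ω : Type*}

/-- action on functions -/
def P (g : Equiv.Perm Ω) : (Ω → ℚ) →ₗ[ℚ] (Ω → ℚ) := LinearMap.funLeft ℚ ℚ g.symm

theorem P_apply (g : Equiv.Perm Ω) (f : Ω → ℚ) (i : Ω) : P g f i = f (g.symm i) := rfl

theorem P_mul (g h : Equiv.Perm Ω) (f : Ω → ℚ) : P (g * h) f = P g (P h f) := rfl

/-- `1 - g` on functions -/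
def D (g : Equiv.Perm Ω) : (Ω → ℚ) →ₗ[ℚ] (Ω → ℚ) := LinearMap.id - P g

theorem D_apply (g : Equiv.Perm Ω) (f : Ω → ℚ) : D g f = f - P g f := rfl

/-- rank of `1 - g`; equals degree minus number of cycles -/
noncomputable def rk (g : Equiv.Perm Ω) : ℕ := Module.finrank ℚ (LinearMap.range (D g))

/-- functions invariant under `x` and `y` -/
def Inv (x y : Equiv.Perm Ω) : Submodule ℚ (Ω → ℚ) := LinearMap.ker (D x) ⊓ LinearMap.ker (D y)

theorem mem_ker_D {g : Equiv.Perm Ω} {f : Ω → ℚ} : f ∈ LinearMap.ker (D g) ↔ ∀ i, f (g i) = f i := by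
  rw [LinearMap.mem_ker, D_apply, sub_eq_zero]
  constructor
  · intro h i
    have := congrFun h (g i)
    rw [P_apply, Equiv.symm_apply_apply] at this
    exact this
  · intro h
    funext i
    rw [P_apply, ← h (g.symm i), Equiv.apply_symm_apply]

theorem P_single [DecidableEq Ω] (g : Equiv.Perm Ω) (i : Ω) :
    P g (Pi.single i 1) = Pi.single (g i) (1 : ℚ) := by
  funext j
  rw [P_apply, Pi.single_apply, Pi.single_apply]
  congr 1
  rw [Equiv.symm_apply_eq]

theorem dual_le [Fintype Ω] [DecidableEq Ω] (x y : Equiv.Perm Ω) :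
    Module.finrank ℚ (LinearMap.range (D x) ⊔ LinearMap.range (D y)).dualAnnihilator ≤
      Module.finrank ℚ (Inv x y) := by
  let U := LinearMap.range (D x) ⊔ LinearMap.range (D y)
  let ev : Module.Dual ℚ (Ω → ℚ) →ₗ[ℚ] (Ω → ℚ) :=
    { toFun := fun φ i => φ (Pi.single i 1)
      map_add' := fun _ _ => rfl
      map_smul' := fun _ _ => rfl }
  have hker : ∀ (g : Equiv.Perm Ω), LinearMap.range (D g) ≤ U → ∀ φ ∈ U.dualAnnihilator, ev φ ∈ LinearMap.ker (D g) := by
    intro g hg φ hφ
    rw [mem_ker_D]
    intro i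
    rw [Submodule.mem_dualAnnihilator] at hφ
    have h1 := hφ (D g (Pi.single i 1)) (hg (LinearMap.mem_range_self _ _))
    rw [D_apply, P_single, map_sub, sub_eq_zero] at h1
    exact h1.symm
  have hmem : ∀ φ ∈ U.dualAnnihilator, ev φ ∈ Inv x y := fun φ hφ =>
    ⟨hker x le_sup_left φ hφ, hker y le_sup_right φ hφ⟩
  let ψ : U.dualAnnihilator →ₗ[ℚ] Inv x y := (ev.domRestrict U.dualAnnihilator).codRestrict (Inv x y)
    (fun φ => hmem φ.1 φ.2)
  apply LinearMap.finrank_le_finrank_of_injective (f := ψ)
  intro a b hab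
  apply Subtype.ext
  apply (Pi.basisFun ℚ Ω).ext
  intro i
  rw [Pi.basisFun_apply]
  exact congrFun (congrArg Subtype.val hab) i

/-- Scott's inequality for the permutation module -/
theorem scott [Fintype Ω] [DecidableEq Ω] {x y z : Equiv.Perm Ω} (h : x * y * z = 1) :
    2 * Fintype.card Ω ≤ rk x + rk y + rk z + 2 * Module.finrank ℚ (Inv x y) := by
  let β : (Ω → ℚ) →ₗ[ℚ] (LinearMap.range (D x) × LinearMap.range (D y) × LinearMap.range (D z)) :=
    (D x).rangeRestrict.prod ((D y).rangeRestrict.prod (D z).rangeRestrict)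
  let δ : (LinearMap.range (D x) × LinearMap.range (D y) × LinearMap.range (D z)) →ₗ[ℚ] (Ω → ℚ) :=
    (LinearMap.range (D x)).subtype.coprod (((P x) ∘ₗ (LinearMap.range (D y)).subtype).coprod
      ((P (x * y)) ∘ₗ (LinearMap.range (D z)).subtype))
  have hδ : ∀ a b c, δ (a, b, c) = a.1 + (P x b.1 + P (x * y) c.1) := fun a b c => rfl
  have hβ : ∀ v, β v = (⟨D x v, LinearMap.mem_range_self _ _⟩, ⟨D y v, LinearMap.mem_range_self _ _⟩,
    ⟨D z v, LinearMap.mem_range_self _ _⟩) := fun v => rfl
  have hcomp : ∀ v, δ (β v) = 0 := by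
    intro v
    rw [hβ, hδ]
    simp only [D_apply]
    have h1 : P (x * y) (v - P z v) = P x (P y v) - v := by
      rw [map_sub, ← P_mul (x * y) z v, h, P_mul]; rfl
    rw [h1, map_sub]
    abel
  have h1 := LinearMap.finrank_range_add_finrank_ker δ
  have h2 := LinearMap.finrank_range_add_finrank_ker β
  have h3 : Module.finrank ℚ (LinearMap.range (D x) × LinearMap.range (D y) × LinearMap.range (D z)) =
      rk x + (rk y + rk z) := by
    rw [Module.finrank_prod, Module.finrank_prod]; rfl
  have h4 : Module.finrank ℚ (Ω → ℚ) = Fintype.card Ω := Module.finrank_pi ℚ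
  have h5 : Module.finrank ℚ (LinearMap.range β) ≤ Module.finrank ℚ (LinearMap.ker δ) := by
    apply Submodule.finrank_mono
    rintro _ ⟨v, rfl⟩
    exact hcomp v
  have h6 : Module.finrank ℚ (LinearMap.ker β) ≤ Module.finrank ℚ (Inv x y) := by
    apply Submodule.finrank_mono
    intro v hv
    rw [LinearMap.mem_ker, hβ, Prod.ext_iff, Prod.ext_iff] at hv
    exact ⟨congrArg Subtype.val hv.1, congrArg Subtype.val hv.2.1⟩
  have h7 : Module.finrank ℚ ↥(LinearMap.range (D x) ⊔ LinearMap.range (D y)) ≤ Module.finrank ℚ (LinearMap.range δ) := by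
    apply Submodule.finrank_mono
    rw [sup_le_iff]
    constructor
    · intro a ha
      exact ⟨(⟨a, ha⟩, 0, 0), by rw [hδ]; simp⟩
    · intro b hb
      refine ⟨(⟨D x b, LinearMap.mem_range_self _ _⟩, ⟨b, hb⟩, 0), ?_⟩
      rw [hδ]
      simp [D_apply]
  have h8 := Subspace.finrank_add_finrank_dualAnnihilator_eq (LinearMap.range (D x) ⊔ LinearMap.range (D y))
  have h9 := dual_le x y
  rw [h4] at h2 h8
  rw [h3] at h1
  omega

/-- rank bound for a permutation of prime order -/
theorem rk_le [Fintype Ω] [DecidableEq Ω] {g : Equiv.Perm Ω} {p : ℕ} (hp : p.Prime) (hg : g ^ p = 1) :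
    p * rk g + (p - 1) * (Finset.univ.filter fun i => g i = i).card ≤ (p - 1) * Fintype.card Ω := by
  classical
  have hrn := LinearMap.finrank_range_add_finrank_ker (D g)
  rw [Module.finrank_pi ℚ] at hrn
  have hrn' : rk g + Module.finrank ℚ (LinearMap.ker (D g)) = Fintype.card Ω := hrn
  have hp1 := hp.one_lt
  by_cases h1 : g = 1
  · subst h1
    have hD : D (1 : Equiv.Perm Ω) = 0 := by
      ext f i; exact sub_self _
    have hr : rk (1 : Equiv.Perm Ω) = 0 := by
      unfold rk
      rw [hD, LinearMap.range_zero, finrank_bot]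
    rw [hr, mul_zero, zero_add]
    exact Nat.mul_le_mul_left _ (Finset.card_le_univ _)
  · have hfact : Fact p.Prime := ⟨hp⟩
    have ho : orderOf g = p := orderOf_eq_prime hg h1
    let G := Subgroup.zpowers g
    have hG : Fintype.card G = p := by
      rw [← Nat.card_eq_fintype_card, Nat.card_zpowers, ho]
    have hB := MulAction.sum_card_fixedBy_eq_card_orbits_mul_card_group G Ω
    rw [hG] at hB
    set F := (Finset.univ.filter fun i => g i = i).card with hF
    have hlow : Fintype.card Ω + (p - 1) * F ≤ ∑ a : G, Fintype.card (MulAction.fixedBy Ω a) := by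
      rw [← Finset.add_sum_erase _ _ (Finset.mem_univ (1 : G))]
      apply Nat.add_le_add
      · apply le_of_eq
        rw [← Nat.card_eq_fintype_card, ← Nat.card_eq_fintype_card]
        have : MulAction.fixedBy Ω (1 : G) = Set.univ := by
          ext i; simp
        rw [this]
        simp
      · have hc : (Finset.univ.erase (1 : G)).card = p - 1 := by
          rw [Finset.card_erase_of_mem (Finset.mem_univ _), Finset.card_univ, hG]
        rw [← hc, ← smul_eq_mul]
        apply Finset.card_nsmul_le_sum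
        intro a _
        rw [hF, ← Fintype.card_coe]
        apply Fintype.card_le_of_injective (fun i => (⟨i.1, by
          have hi : g i.1 = i.1 := (Finset.mem_filter.mp i.2).2
          have : a ∈ MulAction.stabilizer G i.1 := by
            obtain ⟨a, k, rfl⟩ := a
            show (g ^ k) i.1 = i.1
            have h2 : g ∈ MulAction.stabilizer (Equiv.Perm Ω) i.1 := hi
            exact (MulAction.stabilizer (Equiv.Perm Ω) i.1).zpow_mem h2 k
          exact this⟩ : MulAction.fixedBy Ω a))
        intro i j hij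
        exact Subtype.ext (congrArg (fun t : MulAction.fixedBy Ω a => t.1) hij)
    let Q := MulAction.orbitRel.Quotient G Ω
    have hinj : Fintype.card Q ≤ Module.finrank ℚ (LinearMap.ker (D g)) := by
      let ψ : (Q → ℚ) →ₗ[ℚ] LinearMap.ker (D g) :=
        (LinearMap.funLeft ℚ ℚ (fun i : Ω => (Quotient.mk'' i : Q))).codRestrict (LinearMap.ker (D g)) (by
          intro f
          rw [mem_ker_D]
          intro i
          show f _ = f _
          congr 1
          apply Quotient.sound'
          exact ⟨⟨g, Subgroup.mem_zpowers g⟩, rfl⟩)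
      have h2 := LinearMap.finrank_le_finrank_of_injective (f := ψ) (by
        intro a b hab
        funext q
        obtain ⟨i, rfl⟩ := Quotient.exists_rep q
        exact congrFun (congrArg Subtype.val hab) i)
      rwa [Module.finrank_pi ℚ] at h2
    have hB' : ∑ a : G, Fintype.card (MulAction.fixedBy Ω a) = Fintype.card Q * p := hB
    have h3 : Fintype.card Q * p ≤ Module.finrank ℚ (LinearMap.ker (D g)) * p := Nat.mul_le_mul_right _ hinj
    obtain ⟨k, rfl⟩ : ∃ k, p = k + 1 := ⟨p - 1, by omega⟩
    simp only [Nat.add_sub_cancel] at hlow ⊢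
    rw [hB'] at hlow
    have h4 : (k + 1) * (rk g + Module.finrank ℚ (LinearMap.ker (D g))) = (k + 1) * Fintype.card Ω := by
      rw [hrn']
    nlinarith

end H93.Ree
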